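import Cfsg.Agent.Lib.OreOrth.UTrick
import Cfsg.Agent.Lib.OreOrth.Two.Tables

/-!
Big blocks: a corner from the tables and a prescribed commutator.
-/

set_option autoImplicit false
set_option linter.unusedSectionVars false
set_option maxRecDepth 100000

namespace CfsgLib.OreOrth.Two

open Polynomial Module

variable {F : Type*} [Field F] [Fintype F] [CharP F 2]

/-- The product of the admissible polynomials. -/
noncomputable def Phi : F[X] := polyOf phiB

/-- The list is covered by a certificate with the given polynomial. -/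
def inTabP (L : List (ℕ × ℕ)) (P : List Bool) : Bool := tab.any fun e => e.1 == L && e.2.2.2.2.2 == P

/-- The list is covered by a certificate. -/
def inTab (L : List (ℕ × ℕ)) : Bool := tab.any fun e => e.1 == L

theorem tab_ok : (tab.all fun e => certB (size e.1) (rows e.1) e.2 &&
    cofac.any fun c => c.1 == e.2.2.2.2.2) = true := by decide +kernel

theorem cofac_ok : (cofac.all fun c => (padd (pmul c.1 c.2) phiSq).all fun x => !x) = true := by decide +kernel

theorem phiSq_ok : ((padd (pmul phiB phiB) phiSq).all fun x => !x) = true := by decide +kernel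

theorem comm_of_inTabP (h2 : Fintype.card F = 2) {L : List (ℕ × ℕ)} {P : List Bool} (h : inTabP L P = true) :
    Comm (polyOf P : F[X]) (Blk L : End F (Fin (size L) → F)) := by
  obtain ⟨e, he, heq⟩ := List.any_eq_true.1 h
  rw [Bool.and_eq_true, beq_iff_eq, beq_iff_eq] at heq
  obtain ⟨rfl, rfl⟩ := heq
  have := List.all_eq_true.1 tab_ok e he
  rw [Bool.and_eq_true] at this
  exact comm_of_certB h2 this.1

theorem dvd_Phi {P : List Bool} (h : (cofac.any fun c => c.1 == P) = true) : (polyOf P : F[X]) ∣ Phi ^ 2 := by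
  obtain ⟨c, hc, e⟩ := List.any_eq_true.1 h
  rw [beq_iff_eq] at e
  subst e
  refine ⟨polyOf c.2, ?_⟩
  have := List.all_eq_true.1 cofac_ok c hc
  have h0 : (polyOf (padd (pmul c.1 c.2) phiSq) : F[X]) = 0 :=
    polyOf_false _ fun b hb => by simpa using List.all_eq_true.1 this b hb
  have h1 : (polyOf (padd (pmul phiB phiB) phiSq) : F[X]) = 0 :=
    polyOf_false _ fun b hb => by simpa using List.all_eq_true.1 phiSq_ok b hb
  rw [polyOf_padd, polyOf_pmul, CharTwo.add_eq_zero] at h0 h1
  rw [Phi, sq, h1, h0]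

theorem comm_of_pow {P : F[X]} {V : Type*} [AddCommGroup V] [Module F V] {T : End F V} {k : ℕ}
    (h : Comm (P ^ k) T) : Comm P T := by
  obtain ⟨b, g, e, hb, hg, N, hN⟩ := h
  exact ⟨b, g, e, hb, hg, k * N, by rw [pow_mul]; exact hN⟩

theorem comm_of_inTab (h2 : Fintype.card F = 2) {L : List (ℕ × ℕ)} (h : inTab L = true) :
    Comm (Phi : F[X]) (Blk L : End F (Fin (size L) → F)) := by
  obtain ⟨e, he, heq⟩ := List.any_eq_true.1 h
  rw [beq_iff_eq] at heq
  subst heq
  have := List.all_eq_true.1 tab_ok e he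
  rw [Bool.and_eq_true] at this
  exact comm_of_pow ((comm_of_certB h2 this.1).of_dvd (dvd_Phi this.2))

/-- A monic polynomial of degree `m` for the second block next to the polynomial `P`. -/
def Adm (P : F[X]) (m : ℕ) (R : F[X]) : Prop :=
  R.Monic ∧ R.natDegree = m ∧ R.coeff 0 ≠ 0 ∧ IsCoprime P R ∧ ∃ N : ℕ, R ∣ Phi ^ N

theorem Adm.mul {P : F[X]} {m n : ℕ} {R S : F[X]} (h : Adm P m R) (h' : Adm P n S) : Adm P (m + n) (R * S) := by
  obtain ⟨h1, h2, h3, h4, N, h5⟩ := h
  obtain ⟨g1, g2, g3, g4, M, g5⟩ := h'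
  exact ⟨h1.mul g1, by rw [h1.natDegree_mul g1, h2, g2], by rw [mul_coeff_zero]; exact mul_ne_zero h3 g3,
    h4.mul_right g4, N + M, by rw [pow_add]; exact mul_dvd_mul h5 g5⟩

theorem monic_polyOf : ∀ bs : List Bool, bs.getLast? = some true →
    (polyOf bs : F[X]).Monic ∧ (polyOf bs : F[X]).natDegree = bs.length - 1 := by
  intro bs
  induction bs with
  | nil => intro h; simp at h
  | cons b bs ih =>
    intro h
    cases bs with
    | nil =>
      simp at h
      subst h
      simp [polyOf, bF]
    | cons c cs =>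
      obtain ⟨h1, h2⟩ := ih (by simpa [List.getLast?_cons_cons] using h)
      have hd : (X * polyOf (c :: cs) : F[X]).natDegree = (polyOf (c :: cs) : F[X]).natDegree + 1 := by
        rw [monic_X.natDegree_mul h1, natDegree_X, add_comm]
      have hlt : (C (bF b) : F[X]).natDegree < (X * polyOf (c :: cs) : F[X]).natDegree := by
        rw [natDegree_C, hd]; omega
      refine ⟨?_, ?_⟩
      · rw [polyOf, Monic, leadingCoeff, natDegree_add_eq_right_of_natDegree_lt hlt, coeff_add, coeff_C,
          if_neg (by omega), zero_add]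
        exact monic_X.mul h1
      · rw [polyOf, natDegree_add_eq_right_of_natDegree_lt hlt, hd, h2]
        simp

theorem adm_polyOf {P : List Bool} {bs : List Bool} {u v : List Bool} (hl : bs.getLast? = some true)
    (h0 : bs.head? = some true) (hc : coprimeB P bs u v = true)
    (hd : (cofac.any fun c => c.1 == bs) = true) :
    Adm (polyOf P : F[X]) (bs.length - 1) (polyOf bs) := by
  refine ⟨(monic_polyOf bs hl).1, (monic_polyOf bs hl).2, ?_, isCoprime_polyOf hc, 2, dvd_Phi hd⟩
  cases bs with
  | nil => simp at h0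
  | cons b bs =>
    simp at h0
    subst h0
    simp [polyOf, bF]

theorem adm_three : ∀ m, 4 ≤ m → ∃ R, Adm (polyOf p3 : F[X]) m R := by
  intro m
  induction m using Nat.strong_induction_on with
  | _ m ih =>
    intro hm
    rcases Nat.lt_or_ge m 8 with h | h
    · interval_cases m
      · exact ⟨_, adm_polyOf (bs := p4) (by decide) (by decide) coprime_p3_p4 (by decide)⟩
      · exact ⟨_, adm_polyOf (bs := p5) (by decide) (by decide) coprime_p3_p5 (by decide)⟩
      · exact ⟨_, adm_polyOf (bs := p6) (by decide) (by decide) coprime_p3_p6 (by decide)⟩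
      · exact ⟨_, adm_polyOf (bs := p7) (by decide) (by decide) coprime_p3_p7 (by decide)⟩
    · obtain ⟨R, hR⟩ := ih (m - 4) (by omega) (by omega)
      have := (adm_polyOf (F := F) (bs := p4) (by decide) (by decide) coprime_p3_p4 (by decide)).mul hR
      exact ⟨_, (show p4.length - 1 + (m - 4) = m by simp [p4]; omega) ▸ this⟩

theorem adm_four : ∃ R, Adm (polyOf p4 : F[X]) 3 R :=
  ⟨_, adm_polyOf (bs := p3) (by decide) (by decide) coprime_p4_p3 (by decide)⟩

theorem adm_five : ∀ m, 3 ≤ m → ∃ R, Adm (polyOf p5 : F[X]) m R := by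
  intro m
  induction m using Nat.strong_induction_on with
  | _ m ih =>
    intro hm
    rcases Nat.lt_or_ge m 6 with h | h
    · interval_cases m
      · exact ⟨_, adm_polyOf (bs := p3) (by decide) (by decide) coprime_p5_p3 (by decide)⟩
      · exact ⟨_, adm_polyOf (bs := p4) (by decide) (by decide) coprime_p5_p4 (by decide)⟩
      · exact ⟨_, adm_polyOf (bs := q5) (by decide) (by decide) coprime_p5_q5 (by decide)⟩
    · obtain ⟨R, hR⟩ := ih (m - 3) (by omega) (by omega)
      have := (adm_polyOf (F := F) (bs := p3) (by decide) (by decide) coprime_p5_p3 (by decide)).mul hR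
      exact ⟨_, (show p3.length - 1 + (m - 3) = m by simp [p3]; omega) ▸ this⟩

theorem adm_six : ∀ m, 3 ≤ m → ∃ R, Adm (polyOf p6 : F[X]) m R := by
  intro m
  induction m using Nat.strong_induction_on with
  | _ m ih =>
    intro hm
    rcases Nat.lt_or_ge m 6 with h | h
    · interval_cases m
      · exact ⟨_, adm_polyOf (bs := p3) (by decide) (by decide) coprime_p6_p3 (by decide)⟩
      · exact ⟨_, adm_polyOf (bs := p4) (by decide) (by decide) coprime_p6_p4 (by decide)⟩
      · exact ⟨_, adm_polyOf (bs := p5) (by decide) (by decide) coprime_p6_p5 (by decide)⟩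
    · obtain ⟨R, hR⟩ := ih (m - 3) (by omega) (by omega)
      have := (adm_polyOf (F := F) (bs := p3) (by decide) (by decide) coprime_p6_p3 (by decide)).mul hR
      exact ⟨_, (show p3.length - 1 + (m - 3) = m by simp [p3]; omega) ▸ this⟩

/-- A cyclic block with a corner in the table. -/
theorem comm_corner (h2 : Fintype.card F = 2) {d m g : ℕ} (hd : 0 < d) (hm : 0 < m) (hg : g % 2 = 1)
    (S : List (ℕ × ℕ)) {P : List Bool} (hP : (cofac.any fun c => c.1 == P) = true)
    (hcor : inTabP ((d, g % 2 ^ d) :: S) P = true) {R : F[X]} (hR : Adm (polyOf P : F[X]) m R) :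
    Comm (Phi : F[X]) (Blk ((d + m, g) :: S) : End F (Fin (size ((d + m, g) :: S)) → F)) := by
  obtain ⟨hR1, hR2, hR3, hR4, N, hR5⟩ := hR
  let p : Fin m → F := fun i => R.coeff i
  have hp : cpoly p = R := by
    conv_rhs => rw [hR1.as_sum, hR2]
    rw [cpoly, Finset.sum_range]
  obtain ⟨r, hr, hrc⟩ := exists_comp_comm hm p hR3 (isSquare_of_card_two h2 _)
  rw [hp] at hrc
  have hr1 : r ⟨0, hm⟩ = 1 := by rw [hr, CharTwo.neg_eq, one_pow]
  have hg0 : cv (d + m) g ⟨0, by omega⟩ ≠ (0 : F) := by
    have : g.testBit 0 = true := by simp [Nat.testBit_zero, hg]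
    simp [cv, bF, this]
  have hu := hasUDL_comp (F := F) hd hm (cv (d + m) g) hg0 r (by rw [hr1]; exact one_ne_zero)
  have hcv : (fun i : Fin d => cv (d + m) g (Fin.castAdd m i) / r ⟨0, hm⟩) = (cv d (g % 2 ^ d) : Fin d → F) := by
    funext i
    rw [hr1, div_one]
    simp [cv, Nat.testBit_mod_two_pow]
  rw [hcv] at hu
  have hu' := hu.prodMap (hasUDL_right (Blk S : End F (Fin (size S) → F)) (0 : End F (Fin 0 → F)))
  have hr' : Comm R ((comp r).prodMap (0 : End F (Fin 0 → F))) :=
    (Sim.intro (S := comp r) (LinearEquiv.prodUnique (M₂ := (Fin 0 → F))) fun _ => rfl : Sim ((comp r).prodMap (0 : End F (Fin 0 → F))) (comp r)).comm hrc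
  have hA : Comm (polyOf P : F[X])
      ((comp (cv d (g % 2 ^ d))).prodMap (Blk S : End F (Fin (size S) → F))) :=
    (sim_cons (d, g % 2 ^ d) S).symm.comm (comm_of_inTabP h2 hcor)
  have h := (sim_cons (d + m, g) S).comm (hu'.comm hR4.symm hr' hA)
  refine comm_of_pow (k := N + 2) (h.of_dvd ?_)
  rw [pow_add]
  exact mul_dvd_mul hR5 (dvd_Phi hP)

end CfsgLib.OreOrth.Two
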