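import Cfsg.Agent.Lib.OreOrth.Comm

/-!
Matrices and polynomials over a field with two elements as bit patterns, and certificates for `Comm`.
-/

set_option autoImplicit false
set_option linter.unusedSectionVars false

namespace CfsgLib.OreOrth.Two

open Polynomial Matrix

/-- A row times a matrix. -/
def rowMul (a : ℕ) (B : List ℕ) : ℕ → ℕ
  | 0 => 0
  | k + 1 => (if a.testBit k then B.getD k 0 else 0) ^^^ rowMul a B k

/-- The product of bit matrices. -/
def mm (n : ℕ) (A B : List ℕ) : List ℕ := (List.range n).map fun i => rowMul (A.getD i 0) B n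

/-- The sum of bit matrices. -/
def madd (n : ℕ) (A B : List ℕ) : List ℕ := (List.range n).map fun i => A.getD i 0 ^^^ B.getD i 0

/-- The identity. -/
def mone (n : ℕ) : List ℕ := (List.range n).map fun i => 2 ^ i

/-- A polynomial at a bit matrix. -/
def mev (n : ℕ) (h : List ℕ) : List Bool → List ℕ
  | [] => (List.range n).map fun _ => 0
  | b :: bs => madd n (if b then mone n else (List.range n).map fun _ => 0) (mm n h (mev n h bs))

/-- The sum of bit polynomials. -/
def padd : List Bool → List Bool → List Bool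
  | [], q => q
  | p, [] => p
  | a :: p, b :: q => (xor a b) :: padd p q

/-- The product of bit polynomials. -/
def pmul : List Bool → List Bool → List Bool
  | [], _ => []
  | a :: p, q => padd (if a then q else []) (false :: pmul p q)

variable {F : Type*} [Field F]

/-- A bit in the field. -/
def bF (b : Bool) : F := if b then 1 else 0

/-- A bit matrix. -/
def toMat (n : ℕ) (A : List ℕ) : Matrix (Fin n) (Fin n) F :=
  Matrix.of fun i j => bF ((A.getD i 0).testBit j)

/-- The endomorphism of a bit matrix. -/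
def endOf (n : ℕ) (A : List ℕ) : Module.End F (Fin n → F) := Matrix.toLinAlgEquiv' (toMat n A)

/-- A bit polynomial. -/
noncomputable def polyOf : List Bool → F[X]
  | [] => 0
  | b :: bs => C (bF b) + X * polyOf bs

variable [CharP F 2]

theorem bF_xor (a b : Bool) : (bF (xor a b) : F) = bF a + bF b := by
  cases a <;> cases b <;> simp [bF, CharTwo.add_self_eq_zero]

theorem getD_map_range {f : ℕ → ℕ} {n i : ℕ} (h : i < n) : ((List.range n).map f).getD i 0 = f i := by
  simp [List.getD_eq_getElem?_getD, h]

theorem rowMul_testBit (a : ℕ) (B : List ℕ) (j : ℕ) : ∀ k, (bF ((rowMul a B k).testBit j) : F) =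
    ∑ l ∈ Finset.range k, bF (a.testBit l) * bF ((B.getD l 0).testBit j) := by
  intro k
  induction k with
  | zero => simp [rowMul, bF]
  | succ k ih =>
    rw [rowMul, Nat.testBit_xor, bF_xor, ih, Finset.sum_range_succ, add_comm]
    congr 1
    cases a.testBit k <;> simp [bF]

theorem toMat_mm (n : ℕ) (A B : List ℕ) : (toMat n (mm n A B) : Matrix (Fin n) (Fin n) F) = toMat n A * toMat n B := by
  ext i j
  rw [Matrix.mul_apply, toMat, Matrix.of_apply, mm, getD_map_range i.2, rowMul_testBit,
    Finset.sum_range]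
  rfl

theorem toMat_madd (n : ℕ) (A B : List ℕ) :
    (toMat n (madd n A B) : Matrix (Fin n) (Fin n) F) = toMat n A + toMat n B := by
  ext i j
  simp only [toMat, Matrix.of_apply, Matrix.add_apply, madd]
  rw [getD_map_range i.2, Nat.testBit_xor, bF_xor]

theorem toMat_mone (n : ℕ) : (toMat n (mone n) : Matrix (Fin n) (Fin n) F) = 1 := by
  ext i j
  simp only [toMat, Matrix.of_apply, mone]
  rw [getD_map_range i.2, Nat.testBit_two_pow, Matrix.one_apply]
  by_cases h : i = j
  · subst h; simp [bF]
  · have h' : (i : ℕ) ≠ j := fun e => h (Fin.ext e)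
    simp [bF, h, h']

theorem toMat_zeroRows (n : ℕ) : (toMat n ((List.range n).map fun _ => 0) : Matrix (Fin n) (Fin n) F) = 0 := by
  ext i j
  simp [toMat, bF]

theorem aeval_polyOf (n : ℕ) (h : List ℕ) : ∀ p, aeval (toMat n h : Matrix (Fin n) (Fin n) F) (polyOf p : F[X]) =
    toMat n (mev n h p) := by
  intro p
  induction p with
  | nil => rw [polyOf, map_zero, mev, toMat_zeroRows]
  | cons b bs ih =>
    rw [polyOf, map_add, map_mul, aeval_X, ih, aeval_C, mev, toMat_madd, toMat_mm]
    cases b <;> simp only [bF, if_true, Bool.false_eq_true, if_false, toMat_mone, toMat_zeroRows, map_one, map_zero]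

theorem polyOf_padd : ∀ p q, (polyOf (padd p q) : F[X]) = polyOf p + polyOf q := by
  intro p
  induction p with
  | nil => intro q; simp [padd, polyOf]
  | cons a p ih =>
    intro q
    cases q with
    | nil => simp [padd, polyOf]
    | cons b q => simp only [padd, polyOf, ih, bF_xor, map_add]; ring

theorem polyOf_pmul : ∀ p q, (polyOf (pmul p q) : F[X]) = polyOf p * polyOf q := by
  intro p
  induction p with
  | nil => intro q; simp [pmul, polyOf]
  | cons a p ih =>
    intro q
    rw [pmul, polyOf_padd]
    simp only [polyOf, ih]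
    cases a <;> simp [bF, polyOf] <;> ring

theorem polyOf_false : ∀ p : List Bool, (∀ b ∈ p, b = false) → (polyOf p : F[X]) = 0 := by
  intro p
  induction p with
  | nil => intro _; rfl
  | cons a p ih =>
    intro h
    rw [polyOf, h a (by simp), ih fun b hb => h b (by simp [hb])]
    simp [bF]

/-- A Bezout certificate. -/
def coprimeB (p q u v : List Bool) : Bool :=
  match padd (pmul u p) (pmul v q) with
  | [] => false
  | b :: bs => b && bs.all fun x => !x

theorem isCoprime_polyOf {p q u v : List Bool} (h : coprimeB p q u v = true) :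
    IsCoprime (polyOf p : F[X]) (polyOf q) := by
  refine ⟨polyOf u, polyOf v, ?_⟩
  rw [← polyOf_pmul, ← polyOf_pmul, ← polyOf_padd]
  unfold coprimeB at h
  split at h
  · simp at h
  · next b bs e =>
    rw [e]
    simp at h
    rw [polyOf, h.1, polyOf_false bs fun x hx => by cases x with | false => rfl | true => exact absurd hx h.2]
    simp [bF]

/-- A certificate: the conjugating and the second entry with their inverses, and the annihilator. -/
def certB (n : ℕ) (T : List ℕ) (c : List ℕ × List ℕ × List ℕ × List ℕ × List Bool) : Bool :=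
  mm n c.1 c.2.1 == mone n && mm n c.2.2.1 c.2.2.2.1 == mone n &&
    mm n (mm n T c.2.2.1) c.1 == mm n c.1 c.2.2.1 &&
      mev n c.2.2.1 c.2.2.2.2 == (List.range n).map fun _ => 0

omit [CharP F 2] in
theorem isSquare_of_card_two [Fintype F] (h2 : Fintype.card F = 2) (x : F) : IsSquare x := by
  have h := FiniteField.pow_card x
  rw [h2, sq] at h
  exact ⟨x, h.symm⟩

theorem comm_of_certB [Fintype F] (h2 : Fintype.card F = 2) {n : ℕ} {T : List ℕ}
    {c : List ℕ × List ℕ × List ℕ × List ℕ × List Bool} (h : certB n T c = true) :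
    Comm (polyOf c.2.2.2.2 : F[X]) (endOf n T) := by
  obtain ⟨b, bi, g, gi, p⟩ := c
  simp only [certB, Bool.and_eq_true, beq_iff_eq] at h
  obtain ⟨⟨⟨h1, h2'⟩, h3⟩, h4⟩ := h
  have e1 : (toMat n b : Matrix (Fin n) (Fin n) F) * toMat n bi = 1 := by rw [← toMat_mm, h1, toMat_mone]
  have e2 : (toMat n g : Matrix (Fin n) (Fin n) F) * toMat n gi = 1 := by rw [← toMat_mm, h2', toMat_mone]
  have e3 : (toMat n T : Matrix (Fin n) (Fin n) F) * toMat n g * toMat n b = toMat n b * toMat n g := by
    rw [← toMat_mm, ← toMat_mm, h3, toMat_mm]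
  have e4 : aeval (toMat n g : Matrix (Fin n) (Fin n) F) (polyOf p : F[X]) = 0 := by
    rw [aeval_polyOf, h4, toMat_zeroRows]
  let ψ : Matrix (Fin n) (Fin n) F →* Module.End F (Fin n → F) :=
    ((Matrix.toLinAlgEquiv' : Matrix (Fin n) (Fin n) F ≃ₐ[F] _) : Matrix (Fin n) (Fin n) F →* _)
  let ub : (Matrix (Fin n) (Fin n) F)ˣ := ⟨toMat n b, toMat n bi, e1, mul_eq_one_comm.1 e1⟩
  let ug : (Matrix (Fin n) (Fin n) F)ˣ := ⟨toMat n g, toMat n gi, e2, mul_eq_one_comm.1 e2⟩
  refine ⟨Units.map ψ ub, Units.map ψ ug, ?_, isSquare_of_card_two h2 _, isSquare_of_card_two h2 _, 1, ?_⟩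
  · rw [← map_inv, ← map_inv, ← map_mul, ← map_mul, ← map_mul, Units.coe_map]
    show ψ (toMat n T) = ψ _
    congr 1
    rw [Units.val_mul, Units.val_mul, Units.val_mul]
    show (toMat n T : Matrix (Fin n) (Fin n) F) = toMat n b * toMat n g * toMat n bi * toMat n gi
    rw [← e3, mul_assoc (_ * toMat n g) _ (toMat n bi), e1, mul_one, mul_assoc, e2, mul_one]
  · rw [pow_one, Units.coe_map]
    show aeval (Matrix.toLinAlgEquiv' (toMat n g)) (polyOf p : F[X]) = 0
    rw [aeval_algEquiv, AlgHom.comp_apply, e4]
    exact map_zero _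

end CfsgLib.OreOrth.Two
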