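import Cfsg.Agent.Lib.OreOrth.Companion
import Cfsg.Agent.Lib.OreOrth.Two.Bits

/-!
Block diagonal sums of companion endomorphisms, coded by lists of pairs: size and low coefficients.
-/

set_option autoImplicit false
set_option linter.unusedSectionVars false

namespace CfsgLib.OreOrth.Two

open Polynomial Module

/-- The dimension of a list of blocks. -/
def size : List (ℕ × ℕ) → ℕ
  | [] => 0
  | x :: L => x.1 + size L

/-- The rows of a list of blocks. -/
def rows : List (ℕ × ℕ) → List ℕ
  | [] => []
  | x :: L => (List.range (x.1 + size L)).map fun i =>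
      if i < x.1 then (if 1 ≤ i then 2 ^ (i - 1) else 0) ||| (if x.2.testBit i then 2 ^ (x.1 - 1) else 0)
      else (rows L).getD (i - x.1) 0 * 2 ^ x.1

variable {F : Type*} [Field F] {U U' V V' W : Type*} [AddCommGroup V] [Module F V] [AddCommGroup W] [Module F W]
  [AddCommGroup V'] [Module F V'] [AddCommGroup U] [Module F U] [AddCommGroup U'] [Module F U']

/-- Similarity. -/
def Sim (T : End F V) (S : End F W) : Prop := ∃ e : V ≃ₗ[F] W, e.conj T = S

theorem Sim.intro (e : V ≃ₗ[F] W) {T : End F V} {S : End F W} (h : ∀ x, e (T x) = S (e x)) : Sim T S :=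
  ⟨e, LinearMap.ext fun y => by
    rw [LinearEquiv.conj_apply_apply, h, LinearEquiv.apply_symm_apply]⟩

theorem Sim.spec {T : End F V} {S : End F W} (h : Sim T S) : ∃ e : V ≃ₗ[F] W, ∀ x, e (T x) = S (e x) := by
  obtain ⟨e, rfl⟩ := h
  exact ⟨e, fun x => by rw [LinearEquiv.conj_apply_apply, LinearEquiv.symm_apply_apply]⟩

theorem Sim.rfl' (T : End F V) : Sim T T := Sim.intro (LinearEquiv.refl F V) fun _ => rfl

theorem Sim.symm {T : End F V} {S : End F W} (h : Sim T S) : Sim S T := by
  obtain ⟨e, he⟩ := h.spec
  exact Sim.intro e.symm fun y => e.injective (by rw [he, LinearEquiv.apply_symm_apply, LinearEquiv.apply_symm_apply])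

theorem Sim.trans {T : End F V} {S : End F W} {R : End F U} (h : Sim T S) (h' : Sim S R) : Sim T R := by
  obtain ⟨e, he⟩ := h.spec
  obtain ⟨e', he'⟩ := h'.spec
  exact Sim.intro (e.trans e') fun x => by simp [he, he']

theorem Sim.prod {T : End F V} {T' : End F V'} {S : End F U} {S' : End F U'} (h : Sim T T') (h' : Sim S S') :
    Sim (T.prodMap S) (T'.prodMap S') := by
  obtain ⟨e, he⟩ := h.spec
  obtain ⟨e', he'⟩ := h'.spec
  exact Sim.intro (e.prodCongr e') fun x => Prod.ext (he _) (he' _)

theorem sim_comm (T : End F V) (S : End F W) : Sim (T.prodMap S) (S.prodMap T) :=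
  Sim.intro (LinearEquiv.prodComm F V W) fun _ => rfl

theorem sim_assoc (T : End F V) (S : End F W) (R : End F U) :
    Sim ((T.prodMap S).prodMap R) (T.prodMap (S.prodMap R)) :=
  Sim.intro (LinearEquiv.prodAssoc F V W U) fun _ => rfl

theorem Sim.comm {P : F[X]} {T : End F V} {S : End F W} (h : Sim T S) (hS : Comm P S) : Comm P T := by
  obtain ⟨e, rfl⟩ := h
  exact (comm_conj_iff e).1 hS

/-- A list of blocks as an endomorphism. -/
def Blk (L : List (ℕ × ℕ)) : End F (Fin (size L) → F) := endOf (size L) (rows L)

/-- The coefficients with the bits `g`. -/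
def cv (k g : ℕ) : Fin k → F := fun i => bF (g.testBit i)

variable [CharP F 2]

theorem rows_entry (x : ℕ × ℕ) (L : List (ℕ × ℕ)) (i j : Fin (x.1 + size L)) :
    (toMat (x.1 + size L) (rows (x :: L)) i j : F) =
      Fin.addCases (fun i' => Fin.addCases (fun j' =>
          if (j' : ℕ) + 1 < x.1 then (if (i' : ℕ) = (j' : ℕ) + 1 then 1 else 0) else -cv x.1 x.2 i')
        (fun _ => 0) j)
      (fun i' => Fin.addCases (fun _ => 0) (fun j' => toMat (size L) (rows L) i' j') j) i := by
  simp only [toMat, Matrix.of_apply, rows]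
  rw [getD_map_range i.2]
  induction i using Fin.addCases with
  | left i =>
    rw [Fin.addCases_left]
    simp only [Fin.val_castAdd, i.2, if_true]
    have hb : ∀ j : ℕ, (((if 1 ≤ (i : ℕ) then 2 ^ ((i : ℕ) - 1) else 0) |||
        (if x.2.testBit i then 2 ^ (x.1 - 1) else 0)).testBit j) =
        (decide ((i : ℕ) = j + 1) || (x.2.testBit i && decide (j = x.1 - 1))) := by
      intro j
      rw [Nat.testBit_or]
      congr 1
      · by_cases h : 1 ≤ (i : ℕ)
        · rw [if_pos h, Nat.testBit_two_pow]
          exact decide_eq_decide.2 (by omega)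
        · rw [if_neg h, Nat.zero_testBit]
          exact (decide_eq_false (by omega)).symm
      · cases x.2.testBit i
        · simp
        · simp only [if_true, Bool.true_and, Nat.testBit_two_pow]
          exact decide_eq_decide.2 eq_comm
    induction j using Fin.addCases with
    | left j =>
      simp only [Fin.addCases_left, Fin.val_castAdd, hb]
      have hi := i.2
      have hj := j.2
      by_cases h1 : (j : ℕ) + 1 < x.1
      · rw [if_pos h1, decide_eq_false (show ¬ (j : ℕ) = x.1 - 1 by omega), Bool.and_false, Bool.or_false]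
        by_cases h2 : (i : ℕ) = (j : ℕ) + 1 <;> simp [bF, h2]
      · rw [if_neg h1, decide_eq_false (show ¬ (i : ℕ) = (j : ℕ) + 1 by omega),
          decide_eq_true (show (j : ℕ) = x.1 - 1 by omega), Bool.and_true, Bool.false_or, cv,
          CharTwo.neg_eq]
    | right j =>
      have hi := i.2
      simp only [Fin.addCases_right, Fin.val_natAdd, hb]
      rw [decide_eq_false (by omega : ¬ (i : ℕ) = x.1 + (j : ℕ) + 1),
        decide_eq_false (by omega : ¬ x.1 + (j : ℕ) = x.1 - 1)]
      simp [bF]
  | right i =>
    rw [Fin.addCases_right]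
    simp only [Fin.val_natAdd, show ¬ x.1 + (i : ℕ) < x.1 by omega, if_false, Nat.add_sub_cancel_left]
    induction j using Fin.addCases with
    | left j => rw [Fin.addCases_left, Fin.val_castAdd, Nat.testBit_mul_two_pow, decide_eq_false (by omega)]; simp [bF]
    | right j =>
      rw [Fin.addCases_right, Fin.val_natAdd, Nat.testBit_mul_two_pow, decide_eq_true (by omega),
        Nat.add_sub_cancel_left]
      simp

theorem sim_cons (x : ℕ × ℕ) (L : List (ℕ × ℕ)) :
    Sim (Blk (x :: L) : End F (Fin (size (x :: L)) → F))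
      ((comp (cv x.1 x.2)).prodMap (Blk L : End F (Fin (size L) → F))) := by
  let e : (Fin (x.1 + size L) → F) ≃ₗ[F] (Fin x.1 → F) × (Fin (size L) → F) :=
    (LinearEquiv.funCongrLeft F F finSumFinEquiv).trans (LinearEquiv.sumArrowLequivProdArrow _ _ F F)
  refine Sim.intro e fun v => ?_
  have key : ∀ i, (Blk (x :: L) : End F (Fin (size (x :: L)) → F)) v i =
      ∑ j : Fin (x.1 + size L), toMat (x.1 + size L) (rows (x :: L)) i j * v j := fun i => rfl
  refine Prod.ext (funext fun i => ?_) (funext fun i => ?_)
  · show (Blk (x :: L) : End F (Fin (size (x :: L)) → F)) v (Fin.castAdd _ i) = comp (cv x.1 x.2) (e v).1 i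
    refine (key _).trans ?_
    rw [Fin.sum_univ_add]
    simp only [rows_entry, Fin.addCases_left, Fin.addCases_right, zero_mul, Finset.sum_const_zero, add_zero]
    simp [comp, Matrix.mulVec, dotProduct, e]
  · show (Blk (x :: L) : End F (Fin (size (x :: L)) → F)) v (Fin.natAdd _ i) =
      (Blk L : End F (Fin (size L) → F)) (e v).2 i
    refine (key _).trans ?_
    rw [Fin.sum_univ_add]
    simp only [rows_entry, Fin.addCases_left, Fin.addCases_right, zero_mul, Finset.sum_const_zero, zero_add]
    rfl

theorem sim_nil {T : End F V} [Subsingleton V] : Sim (Blk [] : End F (Fin (size []) → F)) T :=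
  haveI : Subsingleton (Fin (size []) → F) := by unfold size; infer_instance
  Sim.intro (LinearEquiv.ofSubsingleton _ _) fun _ => Subsingleton.elim _ _

theorem sim_append : ∀ L L', Sim (Blk (L ++ L') : End F (Fin (size (L ++ L')) → F))
    ((Blk L : End F (Fin (size L) → F)).prodMap (Blk L' : End F (Fin (size L') → F))) := by
  intro L
  induction L with
  | nil =>
    intro L'
    haveI : Subsingleton (Fin (size []) → F) := by unfold size; infer_instance
    haveI : Unique (Fin (size []) → F) := uniqueOfSubsingleton 0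
    refine Sim.symm (Sim.intro ((LinearEquiv.uniqueProd (R := F) (M := (Fin (size L') → F))
      (M₂ := (Fin (size []) → F)))) fun _ => rfl)
  | cons x L ih =>
    intro L'
    exact ((sim_cons x _).trans ((Sim.rfl' _).prod (ih L'))).trans
      ((sim_assoc _ _ _).symm.trans ((sim_cons x L).symm.prod (Sim.rfl' _)))

theorem sim_perm {L L' : List (ℕ × ℕ)} (h : L.Perm L') :
    Sim (Blk L : End F (Fin (size L) → F)) (Blk L' : End F (Fin (size L') → F)) := by
  induction h with
  | nil => exact Sim.rfl' _
  | cons x _ ih => exact (sim_cons x _).trans (((Sim.rfl' _).prod ih).trans (sim_cons x _).symm)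
  | swap x y l =>
    refine ((sim_cons y _).trans ((Sim.rfl' _).prod (sim_cons x l))).trans ?_
    refine ((sim_assoc _ _ _).symm.trans (((sim_comm _ _).prod (Sim.rfl' _)).trans (sim_assoc _ _ _))).trans ?_
    exact (((Sim.rfl' _).prod (sim_cons y l)).symm).trans (sim_cons x _).symm
  | trans _ _ ih ih' => exact ih.trans ih'

theorem comm_append {P : F[X]} {L L' : List (ℕ × ℕ)}
    (h : Comm P (Blk L : End F (Fin (size L) → F))) (h' : Comm P (Blk L' : End F (Fin (size L') → F))) :
    Comm P (Blk (L ++ L') : End F (Fin (size (L ++ L')) → F)) :=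
  (sim_append L L').comm (h.prodMap h')

end CfsgLib.OreOrth.Two
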