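import Cfsg.Agent.Lib.OreOrth.Split
import Cfsg.Agent.Lib.OreOrth.Two.Blocks
import Cfsg.Agent.Lib.PSLCover.Decompose

/-!
Every invertible endomorphism over a field with two elements is a sum of coded companion blocks.
-/

set_option autoImplicit false
set_option linter.unusedSectionVars false

namespace CfsgLib.OreOrth.Two

open Polynomial Module CfsgLib.PSLCover

variable {F : Type*} [Field F] [Fintype F] [CharP F 2]

/-- A block code of an invertible companion. -/
def Valid (x : ℕ × ℕ) : Prop := 0 < x.1 ∧ x.2 < 2 ^ x.1 ∧ x.2 % 2 = 1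

theorem eq_zero_or_one (h2 : Fintype.card F = 2) (a : F) : a = 0 ∨ a = 1 := by
  have h := FiniteField.pow_card a
  rw [h2, sq] at h
  rcases eq_or_ne a 0 with h0 | h0
  · exact Or.inl h0
  · exact Or.inr (mul_left_cancel₀ h0 (h.trans (mul_one a).symm))

theorem exists_cv (h2 : Fintype.card F = 2) {k : ℕ} (c : Fin k → F) : ∃ g, g < 2 ^ k ∧ c = cv k g := by
  classical
  refine ⟨Nat.ofBits fun i => decide (c i = 1), Nat.ofBits_lt_two_pow _, funext fun i => ?_⟩
  rw [cv, Nat.testBit_ofBits_lt _ _ i.2]
  rcases eq_zero_or_one h2 (c i) with h | h <;> simp [bF, h]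

theorem exists_list (h2 : Fintype.card F = 2) : ∀ (n : ℕ) {V : Type _} [AddCommGroup V] [Module F V]
    [FiniteDimensional F V] (T : End F V), finrank F V = n → Function.Injective T →
      ∃ L, (∀ x ∈ L, Valid x) ∧ size L = n ∧ Sim T (Blk L : End F (Fin (size L) → F)) := by
  intro n
  induction n using Nat.strong_induction_on with
  | _ n ih =>
    intro V _ _ _ T hn hT
    rcases Nat.eq_zero_or_pos n with rfl | hpos
    · haveI : Subsingleton V := Module.finrank_zero_iff.1 hn
      exact ⟨[], by simp, rfl, sim_nil.symm⟩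
    obtain ⟨v, W, hli, hW, hc, hCrank⟩ := exists_invariant_compl T
    set k := (minpoly F T).natDegree with hk
    have hnt : Nontrivial V := Module.nontrivial_of_finrank_pos (R := F) (by omega)
    have hk0 : 0 < k := minpoly.natDegree_pos (Algebra.IsIntegral.isIntegral T)
    let C := orbitSpan T v
    have hC : ∀ x ∈ C, T x ∈ C := by
      intro x hx
      have : orbitSpan T v ≤ Submodule.comap T (orbitSpan T v) := Submodule.span_le.2 (by
        rintro _ ⟨i, rfl⟩
        show T ((T ^ i) v) ∈ orbitSpan T v
        rw [← Module.End.mul_apply, ← pow_succ']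
        exact pow_mem_orbitSpan T v (i + 1))
      exact this hx
    let TC : End F C := T.restrict hC
    let TW : End F W := T.restrict hW
    have hli' : LinearIndependent F (fun i : Fin k => (⟨(T ^ (i : ℕ)) v, pow_mem_orbitSpan T v _⟩ : C)) :=
      LinearIndependent.of_comp C.subtype hli
    haveI : Nonempty (Fin k) := ⟨⟨0, hk0⟩⟩
    let b : Basis (Fin k) F C :=
      basisOfLinearIndependentOfCardEqFinrank hli' (by rw [Fintype.card_fin]; exact hCrank.symm)
    have hb : ∀ i : Fin k, b i = ⟨(T ^ (i : ℕ)) v, pow_mem_orbitSpan T v _⟩ := fun i => by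
      simp [b]
    let c : Fin k → F := fun i => -b.repr (TC (b ⟨k - 1, by omega⟩)) i
    have hconj : b.equivFun.conj TC = comp c := by
      refine conj_eq_comp b TC c (fun j hj => ?_) fun j hj => ?_
      · refine Subtype.ext ?_
        rw [hb, hb]
        show T ((T ^ (j : ℕ)) v) = (T ^ ((j : ℕ) + 1)) v
        rw [pow_succ', Module.End.mul_apply]
      · rw [show j = ⟨k - 1, by omega⟩ from Fin.ext (by simp; omega)]
        simp [c, b.sum_repr]
    have hc0 : c ⟨0, hk0⟩ ≠ 0 := by
      intro h0
      have hinj : Function.Injective (comp c) := by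
        rw [← hconj]
        intro x y hxy
        simp only [LinearEquiv.conj_apply_apply] at hxy
        exact b.equivFun.symm.injective (Subtype.ext (hT (congrArg Subtype.val (b.equivFun.injective hxy))))
      obtain ⟨x, hx⟩ := (LinearMap.injective_iff_surjective).1 hinj (Pi.single ⟨0, hk0⟩ 1)
      have h := congrFun hx ⟨0, hk0⟩
      rw [comp_apply c hk0, dif_neg (lt_irrefl 0), h0, zero_mul, sub_zero, Pi.single_eq_same] at h
      exact zero_ne_one h
    obtain ⟨g, hg, hgc⟩ := exists_cv h2 c
    have hsum : finrank F C + finrank F W = n := by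
      rw [Submodule.finrank_add_eq_of_isCompl hc, hn]
    have hCk : finrank F C = k := hCrank
    obtain ⟨L, hL, hLs, hsim⟩ := ih (finrank F W) (by omega) TW rfl
      (fun x y hxy => Subtype.ext (hT (congrArg Subtype.val hxy)))
    refine ⟨(k, g) :: L, ?_, ?_, ?_⟩
    · intro x hx
      rcases List.mem_cons.1 hx with rfl | hx
      · refine ⟨hk0, hg, ?_⟩
        by_contra hodd
        apply hc0
        rw [hgc, cv]
        have : g.testBit ((⟨0, hk0⟩ : Fin k) : ℕ) = false := by
          simp [Nat.testBit_zero]; omega
        simp [bF, this]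
      · exact hL x hx
    · show k + size L = n
      omega
    · refine Sim.trans (Sim.intro (Submodule.prodEquivOfIsCompl C W hc).symm fun x => ?_)
        (((Sim.intro b.equivFun fun x => ?_ : Sim TC (comp (cv k g))).prod hsim).trans (sim_cons (k, g) L).symm)
      · apply (Submodule.prodEquivOfIsCompl C W hc).injective
        rw [LinearEquiv.apply_symm_apply]
        conv_lhs => rw [← (Submodule.prodEquivOfIsCompl C W hc).apply_symm_apply x]
        generalize (Submodule.prodEquivOfIsCompl C W hc).symm x = p
        obtain ⟨p, q⟩ := p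
        simp [TC, TW]
      · rw [← hgc, ← hconj, LinearEquiv.conj_apply_apply, LinearEquiv.symm_apply_apply]

end CfsgLib.OreOrth.Two
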